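import Cfsg.Agent.Lib.KleinGen
import Cfsg.Agent.Lib.Cores
import Cfsg.Agent.H225.AxB

/-!
# S3010 (Sidki), odd characteristic: the abstract argument (helper465)

`G` finite, `K` normal, `p` an odd prime, `V` an elementary abelian 2-subgroup.

* `NoCent` : no involution of `G` centralises a maximal `p`-subgroup of `K`;
* `HasQ`   : every `p`-element `x ≠ 1` of `K` lies in a `p`-subgroup `Q` of `K` with `C_K(Q) ≤ Q` which is normalised
  by all elements centralising or inverting `x`;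
* `T1`     : for `v ∈ V`, `x ≠ 1` odd inverted by `v`, some `r ∈ V#` lies in a normal 2-subgroup of `C_G(⟨v, x⟩)`.

`no_inverted`: no element of `V` inverts a nontrivial `p`-element of `K`;
`no_centralized`: no involution of `V` centralises a nontrivial `p`-element of `K`.
-/

set_option autoImplicit false
set_option linter.unusedSectionVars false

namespace Cfsg.Agent.H465.SK

open Subgroup

variable {G : Type*} [Group G] [Finite G] {K V : Subgroup G} {p : ℕ} [hp : Fact p.Prime]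

/-- no involution centralises a maximal `p`-subgroup of `K` -/
def NoCent (p : ℕ) (K : Subgroup G) : Prop :=
  ∀ r : G, r * r = 1 → r ≠ 1 → ∀ P : Subgroup G, P ≤ K → IsPGroup p P →
    (∀ P' : Subgroup G, P ≤ P' → P' ≤ K → IsPGroup p P' → P' = P) → ∃ u ∈ P, r * u ≠ u * r

/-- self-centralising `p`-subgroups over the `p`-elements -/
def HasQ (p : ℕ) (K : Subgroup G) : Prop :=
  ∀ x ∈ K, x ≠ 1 → (∃ k : ℕ, x ^ p ^ k = 1) → ∃ Q : Subgroup G, Q ≤ K ∧ IsPGroup p Q ∧ x ∈ Q ∧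
    (∀ g ∈ K, (∀ q ∈ Q, g * q = q * g) → g ∈ Q) ∧
    (∀ g : G, g * x * g⁻¹ = x ∨ g * x * g⁻¹ = x⁻¹ → ∀ q ∈ Q, g * q * g⁻¹ ∈ Q)

/-- the tool `(T1)` -/
def T1 (V : Subgroup G) : Prop :=
  ∀ v ∈ V, ∀ x : G, x ≠ 1 → Odd (orderOf x) → v * x * v⁻¹ = x⁻¹ → ∃ r ∈ V, r ≠ 1 ∧ r * v = v * r ∧ r * x = x * r ∧
    ∃ R : Subgroup G, r ∈ R ∧ IsPGroup 2 R ∧ ∀ c : G, c * v = v * c → c * x = x * c → ∀ y ∈ R, c * y * c⁻¹ ∈ R

/-- an element of `p`-power order and of 2-power order is trivial, `p` odd -/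
theorem eq_one_of_two {Q R : Subgroup G} (hp2 : p ≠ 2) (hQ : IsPGroup p Q) (hR : IsPGroup 2 R) {y : G} (h1 : y ∈ Q)
    (h2 : y ∈ R) : y = 1 := by
  have : Fact (Nat.Prime 2) := ⟨Nat.prime_two⟩
  have h3 : Disjoint Q R := by
    have := IsPGroup.disjoint_of_ne p 2 hp2 Q R hQ hR
    exact this
  exact (Subgroup.disjoint_def.1 h3) h1 h2

/-- the order of a `p`-element is odd -/
theorem odd_orderOf (hp2 : p ≠ 2) {x : G} {k : ℕ} (h : x ^ p ^ k = 1) : Odd (orderOf x) := by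
  have h1 : orderOf x ∣ p ^ k := orderOf_dvd_of_pow_eq_one h
  exact Odd.of_dvd_nat ((hp.out.odd_of_ne_two hp2).pow) h1

/-- an element `c` with `c * c = 1` of a `p`-group, `p` odd, is trivial -/
theorem eq_one_of_sq (hp2 : p ≠ 2) {x : G} {k : ℕ} (h : x ^ p ^ k = 1) (h2 : x * x = 1) : x = 1 := by
  have h3 := odd_orderOf hp2 h
  have h4 : orderOf x ∣ 2 := orderOf_dvd_of_pow_eq_one (by rw [pow_two, h2])
  rcases (Nat.dvd_prime Nat.prime_two).1 h4 with h5 | h5
  · exact orderOf_eq_one_iff.1 h5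
  · rw [h5] at h3
    exact absurd h3 (by decide)

theorem pow_of_mem {Q : Subgroup G} (hQ : IsPGroup p Q) {y : G} (hy : y ∈ Q) : ∃ k : ℕ, y ^ p ^ k = 1 := by
  obtain ⟨k, hk⟩ := hQ ⟨y, hy⟩
  exact ⟨k, congrArg Subtype.val hk⟩

/-- `(*)`: no involution centralises a `p`-subgroup `Q` of `K` with `C_K(Q) ≤ Q`. -/
theorem NoCent.not_cent (hN : NoCent p K) (hK : K.Normal) (hp2 : p ≠ 2) {r : G} (hr : r * r = 1) (hr1 : r ≠ 1)
    {Q : Subgroup G} (hQK : Q ≤ K) (hQ : IsPGroup p Q) (hc : ∀ g ∈ K, (∀ q ∈ Q, g * q = q * g) → g ∈ Q) :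
    ∃ u ∈ Q, r * u ≠ u * r := by
  classical
  by_contra hcon
  push Not at hcon
  -- a maximal `p`-subgroup over `Q` centralised by `r`
  let S : Set (Subgroup G) := {P | Q ≤ P ∧ P ≤ K ∧ IsPGroup p P ∧ ∀ u ∈ P, r * u = u * r}
  obtain ⟨P, ⟨hQP, hPK, hP, hPr⟩, hmax⟩ : ∃ P, P ∈ S ∧ ∀ P' ∈ S, P ≤ P' → P' = P := by
    obtain ⟨P, hP⟩ := (Set.toFinite S).exists_maximal ⟨Q, le_rfl, hQK, hQ, hcon⟩
    exact ⟨P, hP.1, fun P' hP' hle => le_antisymm (hP.2 hP' hle) hle⟩
  have hri : r⁻¹ = r := inv_eq_of_mul_eq_one_right hr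
  obtain ⟨u, huP, hu⟩ := hN r hr hr1 P hPK hP (by
    intro P' hPP' hP'K hP'
    by_contra hne
    have hlt : P.subgroupOf P' < ⊤ := by
      rw [lt_top_iff_ne_top, Ne, subgroupOf_eq_top]
      exact fun h => hne (le_antisymm h hPP')
    have hnc : NormalizerCondition P' := by
      have : Group.IsNilpotent P' := hP'.isNilpotent
      exact Group.normalizerCondition_of_isNilpotent
    have h1 := hnc _ hlt
    obtain ⟨g, hg1, hg2⟩ := SetLike.exists_of_lt h1
    -- `r` commutes with every element of `N_{P'}(P)`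
    have h2 : ∀ g : G, g ∈ P' → (∀ u, u ∈ P → g * u * g⁻¹ ∈ P) → r * g = g * r := by
      intro g hgP' hg
      set c := g⁻¹ * (r * g * r) with hcdef
      have hcK : c ∈ K := by
        refine mul_mem (inv_mem (hP'K hgP')) ?_
        have := hK.conj_mem g (hP'K hgP') r
        rwa [hri] at this
      have hcP : ∀ u ∈ P, c * u = u * c := by
        intro u hu
        have e1 : r * u * r = u := by rw [hPr u hu, mul_assoc, hr, mul_one]
        have hgu := hg u hu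
        have e2 : r * (g * u * g⁻¹) * r = g * u * g⁻¹ := by rw [hPr _ hgu, mul_assoc, hr, mul_one]
        have e3 : r * g * r * u = r * g * (r * u * r) * r := by
          rw [show r * g * (r * u * r) * r = r * g * (r * u) * (r * r) by group, hr, mul_one]; group
        have e4 : r * g * r * u = g * u * g⁻¹ * (r * g * r) := by
          calc r * g * r * u = r * g * (r * u * r) * r := e3
            _ = r * (g * u * g⁻¹) * g * r := by rw [e1]; group
            _ = r * (g * u * g⁻¹) * (r * r) * g * r := by rw [hr, mul_one]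
            _ = (r * (g * u * g⁻¹) * r) * (r * g * r) := by group
            _ = _ := by rw [e2]
        rw [hcdef, mul_assoc, e4]
        group
      have hcQ : c ∈ Q := hc c hcK fun q hq => hcP q (hQP hq)
      have hrc : r * c = c * r := hPr c (hQP hcQ)
      have hrg : r * g * r = g * c := by rw [hcdef]; group
      have hcc : c * c = 1 := by
        have h3 : g = r * (r * g * r) * r := by
          rw [show r * (r * g * r) * r = (r * r) * g * (r * r) by group, hr]; group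
        rw [hrg] at h3
        have h4 : r * (g * c) * r = (r * g * r) * c := by
          calc r * (g * c) * r = r * g * (c * r) := by group
            _ = r * g * (r * c) := by rw [hrc]
            _ = r * g * r * c := by group
        rw [h4, hrg] at h3
        have h5 : g * 1 = g * (c * c) := by rw [mul_one, ← mul_assoc]; exact h3
        exact (mul_left_cancel h5).symm
      obtain ⟨k, hk⟩ := pow_of_mem hQ hcQ
      have hc1 := eq_one_of_sq hp2 hk hcc
      rw [hc1, mul_one] at hrg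
      calc r * g = r * g * (r * r) := by rw [hr, mul_one]
        _ = (r * g * r) * r := by group
        _ = g * r := by rw [hrg]
    -- the subgroup `N_{P'}(P)`
    have h3 : (normalizer (P.subgroupOf P' : Set P')).map P'.subtype ∈ S := by
      refine ⟨fun q hq => ?_, ?_, hP'.to_subgroup _ |>.map _, ?_⟩
      · exact ⟨⟨q, hPP' (hQP hq)⟩, le_normalizer (mem_subgroupOf.2 (hQP hq)), rfl⟩
      · rintro _ ⟨y, -, rfl⟩
        exact hP'K y.2
      · rintro _ ⟨y, hy, rfl⟩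
        refine h2 _ y.2 fun u hu => ?_
        exact mem_subgroupOf.1 ((mem_normalizer_iff.1 hy ⟨u, hPP' hu⟩).1 (mem_subgroupOf.2 hu))
    have h4 := hmax _ h3 (fun q hq => ⟨⟨q, hPP' hq⟩, le_normalizer (mem_subgroupOf.2 hq), rfl⟩)
    refine hg2 ?_
    rw [mem_subgroupOf, ← h4]
    exact ⟨g, hg1, rfl⟩)
  exact hu (hPr u huP)

/-- **No element of `V` inverts a nontrivial `p`-element of `K`.** -/
theorem no_inverted (hK : K.Normal) (hp2 : p ≠ 2) (hN : NoCent p K) (hQ : HasQ p K) (hV2 : ∀ a ∈ V, a * a = 1)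
    (hVc : ∀ a ∈ V, ∀ b ∈ V, a * b = b * a) (hT : T1 V) {v x : G} (hv : v ∈ V) (hxK : x ∈ K) (hx1 : x ≠ 1)
    (hxp : ∃ k : ℕ, x ^ p ^ k = 1) (hvx : v * x * v⁻¹ = x⁻¹) : False := by
  classical
  -- choose a pair with minimal `C_V(x)`
  obtain ⟨n, hn⟩ : ∃ n : ℕ, n = Nat.card (V ⊓ centralizer ({x} : Set G) : Subgroup G) := ⟨_, rfl⟩
  induction n using Nat.strong_induction_on generalizing v x with
  | _ n ih =>
  obtain ⟨k, hk⟩ := hxp
  have hodd := odd_orderOf hp2 hk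
  obtain ⟨r, hrV, hr1, hrv, hrx, R, hrR, hR, hRn⟩ := hT v hv x hx1 hodd hvx
  obtain ⟨Q, hQK, hQp, hxQ, hQc, hQn⟩ := hQ x hxK hx1 ⟨k, hk⟩
  have hr2 := hV2 r hrV
  have hv2 := hV2 v hv
  have hri : r⁻¹ = r := inv_eq_of_mul_eq_one_right hr2
  have hvi : v⁻¹ = v := inv_eq_of_mul_eq_one_right hv2
  have hrxc : r * x * r⁻¹ = x := by rw [hrx]; group
  have hrQ : ∀ q ∈ Q, r * q * r⁻¹ ∈ Q := hQn r (Or.inl hrxc)
  have hvQ : ∀ q ∈ Q, v * q * v⁻¹ ∈ Q := hQn v (Or.inr hvx)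
  -- `r` centralises `C_Q(⟨v, x⟩)`
  have hfix : ∀ q ∈ Q, q * v = v * q → q * x = x * q → r * q = q * r := by
    intro q hq hqv hqx
    have h1 : r * q * r⁻¹ * q⁻¹ ∈ Q := mul_mem (hrQ q hq) (inv_mem hq)
    have h2 : r * q * r⁻¹ * q⁻¹ ∈ R := by
      have h3 := mul_mem hrR (hRn q hqv hqx r⁻¹ (inv_mem hrR))
      rwa [show r * (q * r⁻¹ * q⁻¹) = r * q * r⁻¹ * q⁻¹ by group] at h3
    have h3 := eq_one_of_two hp2 hQp hR h1 h2
    calc r * q = (r * q * r⁻¹ * q⁻¹) * (q * r) := by group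
      _ = q * r := by rw [h3, one_mul]
  -- `r` does not centralise `Q`, hence not `C_Q(x)`
  obtain ⟨u₀, hu₀, hu₀r⟩ := hN.not_cent hK hp2 hr2 hr1 hQK hQp hQc
  have hmem : ∀ {g : G}, (∀ q ∈ Q, g * q * g⁻¹ ∈ Q) → (∀ q ∈ Q, g⁻¹ * q * g ∈ Q) → g ∈ normalizer (Q : Set G) := by
    intro g h1 h2
    rw [mem_normalizer_iff]
    refine fun q => ⟨h1 q, fun h => ?_⟩
    have := h2 _ h
    rwa [show g⁻¹ * (g * q * g⁻¹) * g = q by group] at this
  have hrN : r ∈ normalizer (Q : Set G) := hmem hrQ (by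
    intro q hq
    have := hrQ q hq
    rwa [hri] at this ⊢)
  have hxN : zpowers x ≤ normalizer (Q : Set G) := by
    rw [zpowers_le]
    exact le_normalizer hxQ
  obtain ⟨u₁, hu₁Q, hu₁x, hu₁r⟩ : ∃ u ∈ Q, u * x = x * u ∧ r * u ≠ u * r := by
    by_contra hcon
    push Not at hcon
    have h1 := Cfsg.Agent.H225.AxB.axb (D := zpowers x) (y := r) hQp hxN (by
      intro d hd
      refine ⟨k, ?_⟩
      obtain ⟨i, rfl⟩ := hd
      rw [← zpow_natCast, ← zpow_mul, mul_comm, zpow_mul, zpow_natCast, hk, one_zpow]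
      exact one_mem _) hrN (by
      have h2 : orderOf r ∣ 2 := orderOf_dvd_of_pow_eq_one (by rw [pow_two, hr2])
      exact Nat.Coprime.coprime_dvd_left h2 ((Nat.coprime_primes Nat.prime_two hp.out).2 (Ne.symm hp2))) (by
      intro d hd
      obtain ⟨i, rfl⟩ := hd
      have h2 : Commute r (x ^ i) := (show Commute r x from hrx).zpow_right i
      have h3 : x ^ i * r * (x ^ i)⁻¹ * r⁻¹ = 1 := by rw [← h2.eq]; group
      show x ^ i * r * (x ^ i)⁻¹ * r⁻¹ ∈ _
      rw [h3]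
      exact one_mem _) (by
      intro u hu hud
      exact hcon u hu (hud x (mem_zpowers x)).symm)
    exact hu₀r ((mem_centralizer_iff.1 h1 u₀ hu₀).symm)
  -- the four-group `⟨r, v⟩` on `C_Q(x)`
  let Q₁ : Subgroup G := Q ⊓ centralizer ({x} : Set G)
  have hQ₁x : ∀ q ∈ Q₁, q * x = x * q := fun q hq => (mem_centralizer_singleton_iff.1 hq.2)
  have hQ₁p : IsPGroup p Q₁ := hQp.to_le inf_le_left
  have hQ₁odd : Odd (Nat.card Q₁) := by
    obtain ⟨m, hm⟩ := IsPGroup.iff_card.1 hQ₁p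
    rw [hm]
    exact (hp.out.odd_of_ne_two hp2).pow
  have hrQ₁ : ∀ q ∈ Q₁, r * q * r⁻¹ ∈ Q₁ := by
    intro q hq
    refine ⟨hrQ q hq.1, mem_centralizer_singleton_iff.2 ?_⟩
    have h1 := hQ₁x q hq
    have h2 : r⁻¹ * x = x * r⁻¹ := by rw [hri]; exact hrx
    calc r * q * r⁻¹ * x = r * q * (x * r⁻¹) := by rw [mul_assoc, h2]
      _ = r * (q * x) * r⁻¹ := by group
      _ = r * (x * q) * r⁻¹ := by rw [h1]
      _ = (r * x) * q * r⁻¹ := by group
      _ = x * (r * q * r⁻¹) := by rw [hrx]; group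
  have hvQ₁ : ∀ q ∈ Q₁, v * q * v⁻¹ ∈ Q₁ := by
    intro q hq
    refine ⟨hvQ q hq.1, mem_centralizer_singleton_iff.2 ?_⟩
    have h1 := hQ₁x q hq
    have h3 : v * x⁻¹ * v⁻¹ = x := by
      calc v * x⁻¹ * v⁻¹ = (v * x * v⁻¹)⁻¹ := by group
        _ = x := by rw [hvx, inv_inv]
    have h4 : q * x⁻¹ = x⁻¹ * q := ((show Commute q x from h1).inv_right).eq
    calc v * q * v⁻¹ * x = v * q * v⁻¹ * (v * x⁻¹ * v⁻¹) := by rw [h3]
      _ = v * (q * x⁻¹) * v⁻¹ := by group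
      _ = v * (x⁻¹ * q) * v⁻¹ := by rw [h4]
      _ = (v * x⁻¹ * v⁻¹) * (v * q * v⁻¹) := by group
      _ = x * (v * q * v⁻¹) := by rw [h3]
  obtain ⟨z, hzQ, hzrv, hzr⟩ : ∃ z ∈ Q₁, (r * v) * z = z * (r * v) ∧ r * z ≠ z * r := by
    by_contra hcon
    push Not at hcon
    have h1 := Cfsg.Agent.Lib.KleinGen.le_of_klein Q₁ (centralizer ({r} : Set G)) hQ₁odd r v hr2 hv2 hrv hrQ₁ hvQ₁
      inf_le_right (by
        intro q hq
        rw [mem_centralizer_singleton_iff]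
        exact (hfix q hq.1.1 (mem_centralizer_singleton_iff.1 hq.2) (hQ₁x q hq.1)).symm) (by
        intro q hq
        rw [mem_centralizer_singleton_iff]
        exact (hcon q hq.1 (mem_centralizer_singleton_iff.1 hq.2).symm).symm)
    exact hu₁r (mem_centralizer_singleton_iff.1 (h1 ⟨hu₁Q, mem_centralizer_singleton_iff.2 hu₁x⟩)).symm
  -- the element `y = z⁻¹ z^r`
  set y := z⁻¹ * (r * z * r⁻¹) with hy
  have hyQ : y ∈ Q₁ := mul_mem (inv_mem hzQ) (hrQ₁ z hzQ)
  have hyr : r * y * r⁻¹ = y⁻¹ := by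
    rw [hy, hri]
    calc r * (z⁻¹ * (r * z * r)) * r = r * z⁻¹ * r * z * (r * r) := by group
      _ = r * z⁻¹ * r * z := by rw [hr2, mul_one]
      _ = (z⁻¹ * (r⁻¹ * z * r⁻¹))⁻¹ := by group
      _ = (z⁻¹ * (r * z * r))⁻¹ := by rw [hri]
  have hy1 : y ≠ 1 := by
    intro h
    apply hzr
    have h2 : r * z * r⁻¹ = z := by
      rw [hy] at h
      exact (inv_mul_eq_one.1 h).symm
    calc r * z = (r * z * r⁻¹) * r := by group
      _ = z * r := by rw [h2]
  have hyrv : (r * v) * y = y * (r * v) := by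
    have h1 : Commute (r * v) z := hzrv
    have h2 : Commute (r * v) r := by
      show r * v * r = r * (r * v)
      rw [mul_assoc, ← hrv, ← mul_assoc]
    exact (h1.inv_right.mul_right ((h2.mul_right h1).mul_right h2.inv_right)).eq
  have hyv : v * y * v⁻¹ = y⁻¹ := by
    have h1 : v = r * (r * v) := by rw [← mul_assoc, hr2, one_mul]
    calc v * y * v⁻¹ = r * (r * v) * y * (r * (r * v))⁻¹ := by rw [← h1]
      _ = r * ((r * v) * y) * (r * v)⁻¹ * r⁻¹ := by group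
      _ = r * (y * (r * v)) * (r * v)⁻¹ * r⁻¹ := by rw [hyrv]
      _ = r * y * r⁻¹ := by group
      _ = y⁻¹ := hyr
  have hyx : Commute y x := hQ₁x y hyQ
  obtain ⟨j, hj⟩ := pow_of_mem hQ₁p hyQ
  -- the new pair `(v, x y)`
  have hxyp : (x * y) ^ p ^ (k + j) = 1 := by
    rw [hyx.symm.mul_pow, pow_add, pow_mul, hk, one_pow, mul_comm (p ^ k), pow_mul, hj, one_pow, one_mul]
  have hxy1 : x * y ≠ 1 := by
    intro h
    apply hy1
    have h1 : y = x⁻¹ := (inv_eq_of_mul_eq_one_right h).symm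
    have h2 : r * y * r⁻¹ = y := by
      rw [h1]
      calc r * x⁻¹ * r⁻¹ = (r * x * r⁻¹)⁻¹ := by group
        _ = x⁻¹ := by rw [hrxc]
    rw [hyr] at h2
    exact eq_one_of_sq hp2 hj (by rw [← inv_mul_cancel y, h2])
  have hvxy : v * (x * y) * v⁻¹ = (x * y)⁻¹ := by
    calc v * (x * y) * v⁻¹ = (v * x * v⁻¹) * (v * y * v⁻¹) := by group
      _ = x⁻¹ * y⁻¹ := by rw [hvx, hyv]
      _ = (y * x)⁻¹ := by group
      _ = (x * y)⁻¹ := by rw [hyx.eq]
  have hcomm : ∀ w ∈ V, w * (x * y) = (x * y) * w → w * x = x * w ∧ w * y = y * w := by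
    intro w hw hwc
    have h1 : Commute w (x * y) := hwc
    have h2 : Commute w r := hVc w hw r hrV
    have h3 : r * (x * y) * r⁻¹ = x * y⁻¹ := by
      calc r * (x * y) * r⁻¹ = (r * x * r⁻¹) * (r * y * r⁻¹) := by group
        _ = x * y⁻¹ := by rw [hrxc, hyr]
    have h4 : Commute w (x * y⁻¹) := by
      rw [← h3]
      exact (h2.mul_right h1).mul_right h2.inv_right
    have h5 : (x * y) * (x * y⁻¹) = x * x := by
      calc (x * y) * (x * y⁻¹) = x * (y * x) * y⁻¹ := by group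
        _ = x * (x * y) * y⁻¹ := by rw [hyx.eq]
        _ = x * x := by group
    have h6 : Commute w (x * x) := by
      rw [← h5]
      exact h1.mul_right h4
    -- `x` is a power of `x²`
    have h7 : Commute w x := by
      obtain ⟨m, hm⟩ := hodd
      have h8 : x = (x * x) ^ (m + 1) := by
        rw [← pow_two, ← pow_mul, show 2 * (m + 1) = (2 * m + 1) + 1 by ring, pow_succ, ← hm, pow_orderOf_eq_one,
          one_mul]
      rw [h8]
      exact h6.pow_right _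
    refine ⟨h7.eq, ?_⟩
    have h8 : Commute w (x⁻¹ * (x * y)) := h7.inv_right.mul_right h1
    rw [inv_mul_cancel_left] at h8
    exact h8.eq
  refine ih _ ?_ hv (mul_mem hxK (hQK hyQ.1)) hxy1 ⟨_, hxyp⟩ hvxy rfl
  rw [hn]
  have hlt : (V ⊓ centralizer ({x * y} : Set G) : Subgroup G) < V ⊓ centralizer ({x} : Set G) := by
    rw [SetLike.lt_iff_le_and_exists]
    refine ⟨fun w hw => ⟨hw.1, ?_⟩, r, ⟨hrV, mem_centralizer_singleton_iff.2 hrx⟩, ?_⟩
    · exact mem_centralizer_singleton_iff.2 (hcomm w hw.1 (mem_centralizer_singleton_iff.1 hw.2)).1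
    · rintro ⟨-, h⟩
      have h1 := (hcomm r hrV (mem_centralizer_singleton_iff.1 h)).2
      have h2 : r * y * r⁻¹ = y := by rw [h1]; group
      rw [hyr] at h2
      exact hy1 (eq_one_of_sq hp2 hj (by rw [← inv_mul_cancel y, h2]))
  refine lt_of_le_of_ne (Nat.le_of_dvd Nat.card_pos (card_dvd_of_le hlt.le)) fun h => ?_
  exact hlt.ne (Subgroup.eq_of_le_of_card_ge hlt.le h.ge)

/-- **No involution of `V` centralises a nontrivial `p`-element of `K`.** -/
theorem no_centralized (hK : K.Normal) (hp2 : p ≠ 2) (hN : NoCent p K) (hQ : HasQ p K) (hV2 : ∀ a ∈ V, a * a = 1)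
    (hVc : ∀ a ∈ V, ∀ b ∈ V, a * b = b * a) (hT : T1 V) {v x : G} (hv : v ∈ V) (hv1 : v ≠ 1) (hxK : x ∈ K)
    (hx1 : x ≠ 1) (hxp : ∃ k : ℕ, x ^ p ^ k = 1) (hvx : v * x = x * v) : False := by
  obtain ⟨Q, hQK, hQp, hxQ, hQc, hQn⟩ := hQ x hxK hx1 hxp
  have hv2 := hV2 v hv
  have hvi : v⁻¹ = v := inv_eq_of_mul_eq_one_right hv2
  have hvQ : ∀ q ∈ Q, v * q * v⁻¹ ∈ Q := hQn v (Or.inl (by rw [hvx]; group))
  obtain ⟨z, hz, hzv⟩ := hN.not_cent hK hp2 hv2 hv1 hQK hQp hQc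
  have hyQ : z⁻¹ * (v * z * v⁻¹) ∈ Q := mul_mem (inv_mem hz) (hvQ z hz)
  refine no_inverted hK hp2 hN hQ hV2 hVc hT hv (hQK hyQ) ?_ (pow_of_mem hQp hyQ) ?_
  · intro h
    apply hzv
    have h2 : v * z * v⁻¹ = z := (inv_mul_eq_one.1 h).symm
    calc v * z = (v * z * v⁻¹) * v := by group
      _ = z * v := by rw [h2]
  · rw [hvi]
    calc v * (z⁻¹ * (v * z * v)) * v = v * z⁻¹ * v * z * (v * v) := by group
      _ = v * z⁻¹ * v * z := by rw [hv2, mul_one]
      _ = (z⁻¹ * (v⁻¹ * z * v⁻¹))⁻¹ := by group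
      _ = (z⁻¹ * (v * z * v))⁻¹ := by rw [hvi]

end Cfsg.Agent.H465.SK
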